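import Cfsg.Agent.H4.Hyp

/-!
# Quasithin groups with `ℒ_f(G, T)` nonempty: assembly (helper2)
-/

set_option autoImplicit false

namespace Cfsg.Agent.H2.Asm30

open Subgroup Cfsg Cfsg.Agent.H4.LfTrans Cfsg.Agent.H5

universe u

theorem card_eq_two_or {F : Type*} [Field F] [Fintype F] [CharP F 2] : Fintype.card F = 2 ∨ 4 ≤ Fintype.card F := by
  obtain ⟨m, -, hm⟩ := FiniteField.card F 2
  have h5 : (m : ℕ) ≠ 0 := m.ne_zero
  rcases Nat.lt_or_ge (m : ℕ) 2 with h6 | h6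
  · left
    rw [hm, show (m : ℕ) = 1 by omega, pow_one]
  · right
    rw [hm]
    calc 4 = 2 ^ 2 := by norm_num
      _ ≤ 2 ^ (m : ℕ) := Nat.pow_le_pow_right (by norm_num) h6

/-- the conclusion of S1830 -/
def Conc30 (G : Type u) [Group G] : Prop :=
    Cfsg.IsLieRankTwoCharTwoLargeField G ∨
    ((∃ (F : Type) (_ : Field F) (_ : Fintype F), Fintype.card F = 2 ∧
        (Nonempty (G ≃* Matrix.ProjectiveSpecialLinearGroup (Fin 4) F) ∨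
          Nonempty (G ≃* Matrix.ProjectiveSpecialLinearGroup (Fin 5) F))) ∨
      Nonempty (G ≃* ↥(alternatingGroup (Fin 9))) ∨
      Cfsg.Spor.IsoM22 G ∨ Cfsg.Spor.IsoM23 G ∨ Cfsg.Spor.IsoM24 G ∨ Cfsg.Spor.IsoHe G ∨ Cfsg.Spor.IsoJ4 G) ∨
    ((∃ (F : Type) (_ : Field F) (_ : Fintype F), Fintype.card F = 2 ∧ Nonempty (G ≃* Cfsg.PSp 3 F)) ∨
      (∃ (F : Type) (_ : Field F) (_ : Fintype F), Fintype.card F = 4 ∧ Nonempty (G ≃* Cfsg.PSU 4 F 2)) ∨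
      (∃ (F : Type) (_ : Field F) (_ : Fintype F), Fintype.card F = 3 ∧
        (Nonempty (G ≃* Matrix.ProjectiveSpecialLinearGroup (Fin 4) F) ∨ Nonempty (G ≃* ↥(Cfsg.Lie.chevG2.group F)))) ∨
      (∃ (F : Type) (_ : Field F) (_ : Fintype F), Fintype.card F = 9 ∧ Nonempty (G ≃* Cfsg.PSU 4 F 3)) ∨
      Cfsg.Spor.IsoHS G ∨ Cfsg.Spor.IsoRu G)

theorem s1830 {G : Type u} [Group G] [Finite G] (hFT0 : Top.FT.{0}) (hFT : Top.FT.{u})
    (hE : IsOfEvenCharacteristic G) (hl : IsOnQTKEList G) (T : Sylow 2 G)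
    (hne : (calLf (T : Subgroup G)).Nonempty) : Conc30 G := by
  have H := H4.HypAll.hyp (G := G) hFT0 hE
  have hno : NoLf G → Conc30 G := fun h => by
    rw [h T] at hne
    exact (Set.not_nonempty_empty hne).elim
  rcases hl with h | h | h | h | h
  · rcases h with h | ⟨F, _, _, hF, h | ⟨h4, h⟩ | ⟨h4, h⟩⟩ | ⟨F, _, _, n, hn, hF, h⟩ | ⟨F, _, _, hF, h⟩ |
      ⟨K, _, _, n, hn, hK, h⟩ | h | h
    · exact hno (H4.Rows1.bender hFT hE h)
    · rcases card_eq_two_or (F := F) with h2 | h4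
      · obtain ⟨e⟩ := h
        exact hno (H4.Rows2.psl3_two h2 e)
      · exact Or.inl (Or.inl ⟨F, _, _, hF, h4, Or.inl h⟩)
    · exact Or.inl (Or.inl ⟨F, _, _, hF, h4, Or.inr (Or.inl h)⟩)
    · exact Or.inl (Or.inl ⟨F, _, _, hF, h4, Or.inr (Or.inr h)⟩)
    · rcases Nat.lt_or_ge n 2 with h6 | h6
      · obtain rfl : n = 1 := by omega
        exact Or.inr (Or.inr (Or.inr (Or.inl ⟨F, _, _, by rw [hF]; norm_num, h⟩)))
      · exact Or.inl (Or.inr (Or.inl ⟨F, _, _, n, h6, hF, h⟩))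
    · exact Or.inl (Or.inr (Or.inr (Or.inl ⟨F, _, _, hF, h⟩)))
    · rcases Nat.lt_or_ge n 2 with h6 | h6
      · obtain rfl : n = 1 := by omega
        exact hno (H.d42 ⟨K, _, _, by rw [hK]; norm_num, h⟩)
      · exact Or.inl (Or.inr (Or.inr (Or.inr (Or.inl ⟨K, _, _, n, h6, hK, h⟩))))
    · exact Or.inl (Or.inr (Or.inr (Or.inr (Or.inr h))))
    · exact hno (H.tits h)
  · obtain ⟨F, _, _, hF, h | h | h⟩ := h
    · exact Or.inr (Or.inl (Or.inl ⟨F, _, _, hF, Or.inl h⟩))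
    · exact Or.inr (Or.inl (Or.inl ⟨F, _, _, hF, Or.inr h⟩))
    · exact Or.inr (Or.inr (Or.inl ⟨F, _, _, hF, h⟩))
  · rcases h with ⟨⟨e⟩⟩ | ⟨⟨e⟩⟩ | ⟨⟨e⟩⟩ | h
    · exact hno (H4.Rows1.alt_five e)
    · exact hno (H4.Rows1.alt_six e)
    · obtain ⟨e'⟩ := S0256.result (F := ZMod 2) (by rw [ZMod.card])
      exact Or.inr (Or.inl (Or.inl ⟨ZMod 2, inferInstance, inferInstance, by rw [ZMod.card], Or.inl ⟨e.trans e'.symm⟩⟩))
    · exact Or.inr (Or.inl (Or.inr (Or.inl h)))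
  · rcases h with ⟨F, _, _, hF, ⟨e⟩⟩ | ⟨F, _, _, hF, ⟨⟨e⟩⟩ | h | h⟩ | ⟨F, _, _, hF, ⟨⟨e⟩⟩ | h⟩
    · exact hno (H4.Rows1.psl2_odd F (Resid.odd_of_neighbour hF) e)
    · exact hno (H4.Rows1.psl3_odd F (by rw [hF]; decide) e)
    · exact Or.inr (Or.inr (Or.inr (Or.inr (Or.inl ⟨F, _, _, hF, Or.inl h⟩))))
    · exact Or.inr (Or.inr (Or.inr (Or.inr (Or.inl ⟨F, _, _, hF, Or.inr h⟩))))
    · exact hno (H4.Rows1.psu3_odd F (q := 3) (by rw [hF]; norm_num) (by decide) e)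
    · exact Or.inr (Or.inr (Or.inr (Or.inr (Or.inr (Or.inl ⟨F, _, _, hF, h⟩)))))
  · rcases h with h | h | h | h | h | h | h | h | h | h | h
    · exact hno (H4.Rows1.m11 h)
    · exact hno (H4.Rows1.m12 h)
    · exact Or.inr (Or.inl (Or.inr (Or.inr (Or.inl h))))
    · exact Or.inr (Or.inl (Or.inr (Or.inr (Or.inr (Or.inl h)))))
    · exact Or.inr (Or.inl (Or.inr (Or.inr (Or.inr (Or.inr (Or.inl h))))))
    · exact hno (H4.Rows2.j2 hE h)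
    · exact hno (H4.Rows2.j3 hE h)
    · exact Or.inr (Or.inl (Or.inr (Or.inr (Or.inr (Or.inr (Or.inr (Or.inr h)))))))
    · exact Or.inr (Or.inr (Or.inr (Or.inr (Or.inr (Or.inr (Or.inl h))))))
    · exact Or.inr (Or.inl (Or.inr (Or.inr (Or.inr (Or.inr (Or.inr (Or.inl h)))))))
    · exact Or.inr (Or.inr (Or.inr (Or.inr (Or.inr (Or.inr (Or.inr h))))))

end Cfsg.Agent.H2.Asm30
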