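import Cfsg.Agent.H2.LfRow
import Cfsg.Agent.H1.RgdRow

/-!
# `LfRow` for groups with a root group datum of characteristic 2 (helper2)

* `lfRow_of_rgd` : rank at least two, trivial centre, all `⟨X_i, X_{-i}⟩` perfect.
-/

set_option autoImplicit false
set_option linter.unusedSectionVars false

namespace Cfsg.Agent.H2.Rgd

open CoxeterSystem Cfsg.Agent.ChevalleyStructure.CoxeterGeom Cfsg.Agent.Tits.Roots Cfsg.Agent.Tits.Core
  Cfsg.Agent.Tits.RootComb Cfsg.Agent.Tits.Exchange Cfsg.Agent.Nodes.Reps Cfsg.Agent.Nodes.BNOf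
  Cfsg.Agent.Nodes.StabComb Cfsg.Agent.Nodes.Bruhat Cfsg.Agent.Nodes.OppDec Cfsg.Agent.Nodes.LeviDec
  Cfsg.Agent.H1.Over Cfsg.Agent.H1.RgdRow
open scoped commutatorElement

variable {I W Y : Type*} [Fintype I] [DecidableEq I] [Group W] [Group Y] {M : CoxeterMatrix I}
  {cs : CoxeterSystem M W} {A : I → I → ℤ} {h : IsCartan M A} {T : Subgroup Y} {n : I → Y}
  {X : (I → ℤ) → Subgroup Y}

/-- the subgroup `⟨X_i, X_{-i}⟩` -/
def KK (X : (I → ℤ) → Subgroup Y) (i : I) : Subgroup Y := X (sr i) ⊔ X (-sr i)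

theorem pCore_PJ_ne_bot [Finite W] [Finite Y] (R : RGD cs h 2 T n X) {i j : I} (hij : j ≠ i) :
    pCore 2 ↥(PJ cs h T X {i}) ≠ ⊥ := by
  have h2p : Fact (Nat.Prime 2) := ⟨Nat.prime_two⟩
  intro hb
  have h1 := QTUniq.Local.le_map_pCore (p := 2) (U := VJ cs h X {i}) (X := PJ cs h T X {i}) VJ_le_PJ (VJ_isPGroup R {i})
    (PJ_le_normalizer_VJ R {i})
  rw [hb, Subgroup.map_bot] at h1
  obtain ⟨u, hu, hu1⟩ := exists_ne_one R j
  apply hu1
  have h3 : u ∈ VJ cs h X {i} := RGD.le_Sup (S := NotJ cs h {i}) (sr_mem_NotJ (by simpa using hij)) hu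
  simpa using h1 h3

theorem KK_le_PJ (i : I) : KK X i ≤ PJ cs h T X {i} := by
  refine le_trans (sup_le ?_ ?_) (LJ_le_PJ (cs := cs) (h := h))
  · exact X_le_LJ (PosJ_subset _ (sr_mem_PosJ (Set.mem_singleton i)))
  · exact X_le_LJ (RootsJ.neg (PosJ_subset _ (sr_mem_PosJ (Set.mem_singleton i))))

theorem pCore_PJ_ne_bot' [Finite W] [Finite Y] (R : RGD cs h 2 T n X) {J : Set I} (hJ : J ≠ Set.univ) :
    pCore 2 ↥(PJ cs h T X J) ≠ ⊥ := by
  have h2p : Fact (Nat.Prime 2) := ⟨Nat.prime_two⟩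
  obtain ⟨j, hj⟩ := (Set.ne_univ_iff_exists_notMem J).1 hJ
  intro hb
  have h1 := QTUniq.Local.le_map_pCore (p := 2) (U := VJ cs h X J) (X := PJ cs h T X J) VJ_le_PJ (VJ_isPGroup R J)
    (PJ_le_normalizer_VJ R J)
  rw [hb, Subgroup.map_bot] at h1
  obtain ⟨u, hu, hu1⟩ := exists_ne_one R j
  apply hu1
  have h3 : u ∈ VJ cs h X J := RGD.le_Sup (S := NotJ cs h J) (sr_mem_NotJ hj) hu
  simpa using h1 h3

/-- **The row of a group with a root group datum of characteristic 2**: perfect subgroups of Levi subgroups containing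
the negative root groups -/
theorem lfRow_of_rgd_fam [Finite W] [Finite Y] [Nonempty I] (R : RGD cs h 2 T n X) (hG : Nodes.RGDLib.G1 cs h X = ⊤)
    (hZ : Subgroup.center Y = ⊥) {ι : Type*} (J : ι → Set I) (hJ : ∀ k, J k ≠ Set.univ) (K : ι → Subgroup Y)
    (hKJ : ∀ k, K k ≤ LJ cs h T X (J k)) (hK : ∀ k, ⁅K k, K k⁆ = K k) (hcov : ∀ i, ∃ k, X (-sr i) ≤ K k) :
    LfRow Y := by
  have h2p : Fact (Nat.Prime 2) := ⟨Nat.prime_two⟩
  obtain ⟨S, hS⟩ := exists_sylow R (KFacts.RgdFilt.GG_eq_top hG)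
  refine LfRow.of_one S (LfAt.of_gen hZ ?_ S (fun k => PJ cs h T X (J k)) K (fun k => ?_)
    (fun k => pCore_PJ_ne_bot' R (hJ k)) (fun k => (hKJ k).trans LJ_le_PJ) hK ?_)
  · obtain ⟨i⟩ : Nonempty I := inferInstance
    obtain ⟨u, hu, hu1⟩ := exists_ne_one R i
    have h1 : u ∈ (S : Subgroup Y) := by
      rw [hS]
      exact RGD.le_Sup (S := RGD.Pos cs h) ⟨isRoot_sr cs h i, sr_nonneg i⟩ hu
    have h3 : (S : Subgroup Y) ≠ ⊥ := fun hb => hu1 (by rw [hb] at h1; simpa using h1)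
    have : Nontrivial ↥(S : Subgroup Y) := (Subgroup.nontrivial_iff_ne_bot _).2 h3
    obtain ⟨k, hk0, hk⟩ := (IsPGroup.nontrivial_iff_card S.2).1 this
    exact (dvd_pow_self 2 hk0.ne').trans (hk ▸ Subgroup.card_subgroup_dvd_card (S : Subgroup Y))
  · rw [hS]
    exact RGD.U_le_B.trans B_le_PJ
  · have hU : RGD.Sup X (RGD.Pos cs h) ≤ (S : Subgroup Y) ⊔ ⨆ k, K k := by
      rw [hS]; exact le_sup_left
    have hJ : JH X ((S : Subgroup Y) ⊔ ⨆ k, K k) = Set.univ := by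
      rw [Set.eq_univ_iff_forall]
      intro i
      obtain ⟨k, hk⟩ := hcov i
      exact (hk.trans (le_iSup K k)).trans le_sup_right
    have h1 := rootsJ_le R hU
    rw [hJ, RootsJ_univ] at h1
    rw [eq_top_iff, ← hG]
    exact h1

/-- **The row of a group with a root group datum of characteristic 2 all of whose rank one subgroups are perfect** -/
theorem lfRow_of_rgd [Finite W] [Finite Y] [Nontrivial I] (R : RGD cs h 2 T n X) (hG : Nodes.RGDLib.G1 cs h X = ⊤)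
    (hZ : Subgroup.center Y = ⊥) (hK : ∀ i, ⁅KK X i, KK X i⁆ = KK X i) : LfRow Y := by
  have h2p : Fact (Nat.Prime 2) := ⟨Nat.prime_two⟩
  obtain ⟨S, hS⟩ := exists_sylow R (KFacts.RgdFilt.GG_eq_top hG)
  refine LfRow.of_one S (LfAt.of_gen hZ ?_ S (fun i => PJ cs h T X {i}) (KK X) (fun i => ?_) (fun i => ?_)
    (fun i => KK_le_PJ i) hK ?_)
  · obtain ⟨i⟩ : Nonempty I := inferInstance
    obtain ⟨u, hu, hu1⟩ := exists_ne_one R i
    have h1 : u ∈ (S : Subgroup Y) := by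
      rw [hS]
      exact RGD.le_Sup (S := RGD.Pos cs h) ⟨isRoot_sr cs h i, sr_nonneg i⟩ hu
    have h3 : (S : Subgroup Y) ≠ ⊥ := fun hb => hu1 (by rw [hb] at h1; simpa using h1)
    have : Nontrivial ↥(S : Subgroup Y) := (Subgroup.nontrivial_iff_ne_bot _).2 h3
    obtain ⟨k, hk0, hk⟩ := (IsPGroup.nontrivial_iff_card S.2).1 this
    exact (dvd_pow_self 2 hk0.ne').trans (hk ▸ Subgroup.card_subgroup_dvd_card (S : Subgroup Y))
  · rw [hS]
    exact RGD.U_le_B.trans B_le_PJ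
  · obtain ⟨j, hj⟩ := exists_ne i
    exact pCore_PJ_ne_bot R hj
  · have hU : RGD.Sup X (RGD.Pos cs h) ≤ (S : Subgroup Y) ⊔ ⨆ i, KK X i := by
      rw [hS]; exact le_sup_left
    have hJ : JH X ((S : Subgroup Y) ⊔ ⨆ i, KK X i) = Set.univ := by
      rw [Set.eq_univ_iff_forall]
      intro i
      exact (le_sup_right.trans (le_iSup (KK X) i)).trans le_sup_right
    have h1 := rootsJ_le R hU
    rw [hJ, RootsJ_univ] at h1
    rw [eq_top_iff, ← hG]
    exact h1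

theorem lfRow_of_filt [Finite W] [Finite Y] [Nontrivial I] {R : RGD cs h 2 T n X} {Φ : (I → ℤ) → ℝ → Subgroup Y}
    (_hF : KFacts.RgdBorelTits.Filt R Φ) (hG : Nodes.RGDLib.G1 cs h X = ⊤)
    (hZ : Subgroup.center Y = ⊥) (hK : ∀ i, ⁅KK X i, KK X i⁆ = KK X i) : LfRow Y :=
  lfRow_of_rgd R hG hZ hK

end Cfsg.Agent.H2.Rgd
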