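import Cfsg.Agent.H2.UniqRgd
import Cfsg.Agent.H2.UniqC
import Cfsg.Agent.H1.TopHex
import Cfsg.Agent.HexTwoGlob.InstTwo

/-!
# `C_G(Ω₁(Z(T)))` lies in a unique maximal 2-local subgroup: `³D₄(2)` (helper2)
-/

set_option autoImplicit false
set_option linter.unusedSectionVars false

namespace Cfsg.Agent.H2.UniqCTwD4

open Subgroup

universe u v w

section coord

open Cfsg.Agent.HexRec Cfsg.Agent.HexTwoGlob

variable {F K : Type v} [Field F] [Field K] [Algebra F K] {C : Cubic F K} {S : Type w} [Group S] (E : Coord C S)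

/-- the centre of the Sylow 2-subgroup of `³D₄(2)` -/
theorem eq_x4_of_central {u : S} (hu : ∀ s, u * s = s * u) : u = E.x4 (E.e u).a4 := by
  have h1 : (E.e u).a1 = 0 := by
    have := congrArg (fun x => (E.e x).a5) (hu (E.x6 1))
    simp only [E.mul_a5, E.e_x6, add_zero, zero_add, smul_zero, one_smul] at this
    have h2 : (E.e u).a5 + 0 = (E.e u).a5 + (E.e u).a1 := by rw [add_zero]; exact this
    exact (add_left_cancel h2).symm
  have h6 : (E.e u).a6 = 0 := by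
    have := congrArg (fun x => (E.e x).a5) (hu (E.x1 1))
    simp only [E.mul_a5, E.e_x1, add_zero, zero_add, h1, smul_zero, zero_smul] at this
    have h2 : (E.e u).a5 + (E.e u).a6 • (1 : K) = (E.e u).a5 + 0 := by rw [add_zero]; exact this
    have h3 := add_left_cancel h2
    rcases smul_eq_zero.1 h3 with h | h
    · exact h
    · exact absurd h one_ne_zero
  have h3 : (E.e u).a3 = 0 := by
    apply C.T_nondeg
    intro k
    have := congrArg (fun x => (E.e x).a4) (hu (E.x5 k))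
    simp only [E.mul_a4, E.e_x5, add_zero, zero_add, h1, h6, zero_mul, mul_zero, C.T_zero_left, C.T_zero_right,
      C.N_zero, C.sh_zero, ne_eq, OfNat.ofNat_ne_zero, not_false_eq_true, zero_pow] at this
    have h2 : (E.e u).a4 + 0 = (E.e u).a4 + C.T (E.e u).a3 k := by rw [add_zero]; exact this
    exact (add_left_cancel h2).symm
  have h5 : (E.e u).a5 = 0 := by
    apply C.T_nondeg
    intro k
    have := congrArg (fun x => (E.e x).a4) (hu (E.x3 k))
    simp only [E.mul_a4, E.e_x3, add_zero, zero_add, h1, h6, h3, zero_mul, mul_zero, C.T_zero_left, C.T_zero_right,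
      C.N_zero, C.sh_zero, ne_eq, OfNat.ofNat_ne_zero, not_false_eq_true, zero_pow] at this
    have h2 : (E.e u).a4 + C.T k (E.e u).a5 = (E.e u).a4 + 0 := by rw [add_zero]; exact this
    rw [C.T_comm]
    exact add_left_cancel h2
  have h2 : (E.e u).a2 = 0 := by
    have := congrArg (fun x => (E.e x).a4) (hu (E.x6 1))
    simp only [E.mul_a4, E.e_x6, add_zero, zero_add, h1, h6, h3, h5, zero_mul, mul_zero, one_mul, C.T_zero_left,
      C.T_zero_right, C.N_zero, C.sh_zero, ne_eq, OfNat.ofNat_ne_zero, not_false_eq_true, zero_pow] at this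
    have h2 : (E.e u).a4 + 0 = (E.e u).a4 + (E.e u).a2 := by rw [add_zero]; exact this
    exact (add_left_cancel h2).symm
  apply E.ext <;> simp [E.e_x4, h1, h2, h3, h5, h6]

include E in
theorem eq_of_central (hD : Dat2 C) {u v : S} (hu : ∀ s, u * s = s * u) (hv : ∀ s, v * s = s * v) (hu1 : u ≠ 1)
    (hv1 : v ≠ 1) : u = v := by
  have h0 : E.x4 0 = (1 : S) := by
    apply E.ext <;> simp [E.e_x4, E.one_a1, E.one_a2, E.one_a3, E.one_a4, E.one_a5, E.one_a6]
  have key : ∀ w : S, (∀ s, w * s = s * w) → w ≠ 1 → w = E.x4 1 := by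
    intro w hw hw1
    have h1 := eq_x4_of_central E hw
    rcases hD.eq_zero_or_one (E.e w).a4 with h2 | h2
    · rw [h2, h0] at h1
      exact absurd h1 hw1
    · rwa [h2] at h1
  rw [key u hu hu1, key v hv hv1]

end coord

open CoxeterSystem Cfsg.Agent.ChevalleyStructure.CoxeterGeom Cfsg.Agent.Tits.Roots Cfsg.Agent.Tits.Core
  Cfsg.Agent.Tits.RootComb Cfsg.Agent.Nodes.Comb Cfsg.Agent.Nodes.Reps Cfsg.Agent.Nodes.BNOf
  Cfsg.Agent.SplitTwo Cfsg.Agent.UGT.U2.FOne.Hexa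
open Cfsg.Agent.H1.TopHex Cfsg.Agent.QTUniq.Local Cfsg.Agent.H7.Faithful
open scoped commutatorElement

section par

variable {I W K : Type*} [Fintype I] [DecidableEq I] [Group W] [Finite W] [Group K] {M : CoxeterMatrix I}
  {cs : CoxeterSystem M W} {A : I → I → ℤ} {h : IsCartan M A} {p : ℕ} {T : Subgroup K} {n : I → K}
  {X : (I → ℤ) → Subgroup K} {l s : I}
variable {E : Type*} [Field E] [Finite E] [CharP E 2] {θ : E ≃+* E} {x1 x2 x3 x4 x5 x6 : E → K}
  (P : HexPar θ (fun k => X (r l s k)) x1 x2 x3 x4 x5 x6)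

theorem comm_of_kk {a b : K} (h : kk a b = 1) : a * b = b * a := by
  unfold kk at h
  calc a * b = b * a * (a⁻¹ * b⁻¹ * a * b) := by group
    _ = b * a := by rw [h, mul_one]

include P in
/-- `X₄` is centralized by the positive root groups -/
theorem comm_four {t : E} (ht : θ t = t) (k : ZMod (2 * 6)) (hk : k ∈ [(1 : ZMod (2 * 6)), 2, 3, 4, 5, 6]) {g : K}
    (hg : g ∈ X (r l s k)) : g * x4 t = x4 t * g := by
  simp only [List.mem_cons, List.not_mem_nil, or_false] at hk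
  rcases hk with rfl | rfl | rfl | rfl | rfl | rfl
  · obtain ⟨a, rfl⟩ := (P.mem1 g).1 hg
    exact comm_of_kk (P.rel.c14 a t ht)
  · obtain ⟨a, ha, rfl⟩ := (P.mem2 g).1 hg
    exact comm_of_kk (P.rel.c24 a t ha ht)
  · obtain ⟨a, rfl⟩ := (P.mem3 g).1 hg
    exact comm_of_kk (P.rel.c34 a t ht)
  · obtain ⟨a, ha, rfl⟩ := (P.mem4 g).1 hg
    rw [← P.rel.add4 _ _ ha ht, ← P.rel.add4 _ _ ht ha, add_comm]
  · obtain ⟨a, rfl⟩ := (P.mem5 g).1 hg
    exact (comm_of_kk (P.rel.c45 t a ht)).symm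
  · obtain ⟨a, ha, rfl⟩ := (P.mem6 g).1 hg
    exact (comm_of_kk (P.rel.c46 t a ht ha)).symm

include P in
/-- `X₄` is centralized by `X_{-s}` -/
theorem comm_four_neg (R : RGD cs h p T n X) (H : TyG A l s) {t : E} (ht : θ t = t) {g : K}
    (hg : g ∈ X (-sr s)) : g * x4 t = x4 t * g := by
  -- conjugate by `n_s`
  have e7 : cj (n s) (X (r l s 1)) = X (-sr s) := by
    rw [R.conj s _ (isRoot_r H 1), rep_s H]
    have h1 : (8 - 1 : ZMod (2 * 6)) = 1 + 6 := by decide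
    rw [h1, r_neg, r_one]
  have e4 : cj (n s) (X (r l s 4)) = X (r l s 4) := by
    rw [R.conj s _ (isRoot_r H 4), rep_s H]
    have h1 : (8 - 4 : ZMod (2 * 6)) = 4 := by decide
    rw [h1]
  have hx4 : x4 t ∈ X (r l s 4) := (P.mem4 _).2 ⟨t, ht, rfl⟩
  rw [← e7, mem_cj] at hg
  rw [← e4, mem_cj] at hx4
  obtain ⟨u, hu, hu4⟩ := (P.mem4 _).1 hx4
  have h1 := comm_four P hu 1 (by decide) hg
  rw [hu4] at h1
  calc g * x4 t = n s * ((n s)⁻¹ * g * n s * ((n s)⁻¹ * x4 t * n s)) * (n s)⁻¹ := by group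
    _ = n s * ((n s)⁻¹ * x4 t * n s * ((n s)⁻¹ * g * n s)) * (n s)⁻¹ := by rw [h1]
    _ = _ := by group

theorem pos_r (H : TyG A l s) {k : ZMod (2 * 6)} (hk : k ∈ [(1 : ZMod (2 * 6)), 2, 3, 4, 5, 6]) :
    r l s k ∈ RGD.Pos cs h := by
  have htab : ∀ k ∈ [(1 : ZMod (2 * 6)), 2, 3, 4, 5, 6], 0 ≤ (tab k).1 ∧ 0 ≤ (tab k).2 := by decide
  refine ⟨isRoot_r H k, ?_⟩
  intro j
  obtain ⟨h1, h2⟩ := htab k hk
  rcases H.all j with rfl | rfl
  · change 0 ≤ rv _ _ (tab k) _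
    rw [rv_l H]
    exact h1
  · change 0 ≤ rv _ _ (tab k) _
    rw [rv_s H]
    exact h2

theorem exists_of_pos (H : TyG A l s) {x : I → ℤ} (hx : x ∈ RGD.Pos cs h) :
    ∃ k ∈ [(1 : ZMod (2 * 6)), 2, 3, 4, 5, 6], x = r l s k := by
  obtain ⟨k, rfl⟩ := (isRoot_iff H).1 hx.1
  refine ⟨k, pos_mem k ?_ ?_, rfl⟩
  · have := hx.2 l
    change 0 ≤ rv _ _ (tab k) _ at this
    rwa [rv_l H] at this
  · have := hx.2 s
    change 0 ≤ rv _ _ (tab k) _ at this
    rwa [rv_s H] at this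

include P in
theorem uniqC_of_par [Finite K] {R : RGD cs h 2 T n X} (H : TyG A l s) {F : (I → ℤ) → ℝ → Subgroup K}
    (hF : Cfsg.Agent.KFacts.RgdBorelTits.Filt R F) (hG : Nodes.RGDLib.G1 cs h X = ⊤)
    (S : Sylow 2 K) (hS : (S : Subgroup K) = RGD.Sup X (RGD.Pos cs h))
    (hcen : ∀ u v : (S : Subgroup K), (∀ w, u * w = w * u) → (∀ w, v * w = w * v) → u ≠ 1 → v ≠ 1 → u = v) :
    UniqC K := by
  have h1θ : θ 1 = 1 := map_one _
  have hgU : x4 1 ∈ (S : Subgroup K) := by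
    rw [hS]
    exact RGD.le_Sup (pos_r H (by decide)) ((P.mem4 _).2 ⟨1, h1θ, rfl⟩)
  have hg1 : x4 1 ≠ 1 := by
    intro h
    have h0 : x4 0 = 1 := by
      have := P.rel.add4 0 0 (map_zero _) (map_zero _)
      rw [add_zero] at this
      exact mul_eq_left.1 this.symm
    exact one_ne_zero (P.inj4 1 0 h1θ (map_zero _) (h.trans h0.symm))
  have hgC : (S : Subgroup K) ≤ centralizer ({x4 1} : Set K) := by
    rw [hS]
    refine RGD.Sup_le fun x hx => ?_
    obtain ⟨k, hk, rfl⟩ := exists_of_pos H hx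
    exact fun g hg => mem_centralizer_singleton_iff.2 (comm_four P h1θ k hk hg)
  have hgN : X (-sr s) ≤ centralizer ({x4 1} : Set K) := fun g hg =>
    mem_centralizer_singleton_iff.2 (comm_four_neg P R H h1θ hg)
  -- `Ω₁(Z(U)) ≤ {1, x₄(1)}`
  have hZ : ∀ z ∈ omZ (S : Subgroup K), z = 1 ∨ z = x4 1 := by
    intro z hz
    obtain ⟨⟨h1, h2⟩, -⟩ := mem_omZ.1 hz
    by_cases hz1 : z = 1
    · exact Or.inl hz1
    · right
      exact congrArg Subtype.val (hcen ⟨z, h1⟩ ⟨x4 1, hgU⟩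
        (fun w => Subtype.ext (mem_centralizer_iff.1 h2 w w.2).symm)
        (fun w => Subtype.ext (mem_centralizer_singleton_iff.1 (hgC w.2)).symm)
        (fun h => hz1 (congrArg Subtype.val h)) (fun h => hg1 (congrArg Subtype.val h)))
  have hle : centralizer ({x4 1} : Set K) ≤ centralizer (omZ (S : Subgroup K) : Set K) := by
    intro g hg
    rw [mem_centralizer_iff]
    intro z hz
    rcases hZ z hz with rfl | rfl
    · simp
    · exact (mem_centralizer_singleton_iff.1 hg).symm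
  refine UniqC.of_one S (UniqRgd.uniq_of_rgd hF hG (hS ▸ hgC.trans hle) (i := s) (i' := l) H.ne
    (fun j => (H.all j).symm) (hgN.trans hle))

end par

open Cfsg Cfsg.Lie Cfsg.Agent.ChevalleyStructure Cfsg.Agent.BiChar
open Cfsg.Agent.Nodes.RGDTwD4 (J A isCartan X)
open Cfsg.Agent.Nodes.RGDFoldSL
open Cfsg.Agent.H1.QsNode Cfsg.Agent.H1.TopPSL Cfsg.Agent.H1.RowExc Cfsg.Agent.H1.RgdRow

variable {K : Type} [Field K] [Fintype K]

theorem uniqC' (hK : Fintype.card K = 8) : UniqC ↥(twistedD4 K 2) := by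
  have h2p : Fact (Nat.Prime 2) := ⟨Nat.prime_two⟩
  have hchar : CharP K 2 := charP_of_card_eq_prime_pow (R := K) (f := 3) (by rw [hK]; norm_num)
  have hK3 : Fintype.card K = 2 ^ 3 := by rw [hK]; norm_num
  have hq : IsPrimePow 2 := Nat.prime_two.isPrimePow
  obtain ⟨φ, hφ⟩ := D4Fixed.exists_frob hq hK3
  have hle := D4Fixed.twisted_le_fix hK3 hφ
  have hfW : Finite CoxeterMatrix.G₂.Group := Nodes.RGDChev.finite_W GTwo.isType TwDFour.cs
  have h3 : ∀ a : K, φ (φ (φ a)) = a := by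
    intro t
    rw [hφ, hφ, hφ, ← pow_mul, ← pow_mul]
    have : 2 * (2 * 2) = 2 ^ 3 := by norm_num
    rw [this, ← hK3]
    exact FiniteField.pow_card t
  have hbij : Function.Bijective φ := Finite.injective_iff_bijective.1 φ.injective
  have hpar := Cfsg.Agent.Hexagon.TwD4Par.hexPar (q := 2) hφ hle (σ := RingEquiv.ofBijective φ hbij)
    (fun x => rfl) h3
  have hP : (fun k => X φ 2 (r (0 : Fin 2) 1 k)) = Cfsg.Agent.Hexagon.TwD4RGD.X K 2 :=
    funext (Cfsg.Agent.UGT.U2.FOne.TwDFour.X_eq hle)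
  rw [← hP] at hpar
  have R := Nodes.RGDTwD4.rgd (K := K) TwDFour.cs hK3 hφ 2
  have hG := Nodes.RGDTwD4.G1_eq_top TwDFour.cs hK3 hφ
  have hF := Cfsg.Agent.KFacts.RgdFiltTwAll.filt_fold TwDFour.cs Nodes.RGDTwD4.isCartan Nodes.RGDTwD4.foldData
      (Nodes.RGDTwD4.foldGrp hφ hle) 2
  have hT := Cfsg.Agent.UGT.U2.FOne.TwDFour.tyG
  obtain ⟨S, hS⟩ := exists_sylow R (KFacts.RgdFilt.GG_eq_top hG)
  obtain ⟨F₀, _, _, C, hD, hcoord⟩ := HexTwoGlob.InstTwo.instTwo K hK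
  obtain ⟨E⟩ := hcoord S
  exact uniqC_of_par hpar hT hF hG S hS fun u v hu hv => eq_of_central E hD hu hv

/-- **`³D₄(2)`** -/
theorem uniqC {G : Type u} [Group G] [Finite G] (hK : Fintype.card K = 8) (e : G ≃* ↥(twistedD4 K 2)) : UniqC G :=
  (uniqC' hK).congr e

end Cfsg.Agent.H2.UniqCTwD4
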