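import Cfsg.Agent.H2.Uniq
import Cfsg.Agent.H2.Rgd

/-!
# Subgroups over a minimal parabolic subgroup of a group with a root group datum of rank two (helper2)
-/

set_option autoImplicit false
set_option linter.unusedSectionVars false

namespace Cfsg.Agent.H2.UniqRgd

open Subgroup
open CoxeterSystem Cfsg.Agent.ChevalleyStructure.CoxeterGeom Cfsg.Agent.Tits.Roots Cfsg.Agent.Tits.Core
  Cfsg.Agent.Tits.RootComb Cfsg.Agent.Tits.Exchange Cfsg.Agent.Nodes.Reps Cfsg.Agent.Nodes.BNOf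
  Cfsg.Agent.Nodes.StabComb Cfsg.Agent.Nodes.Bruhat Cfsg.Agent.Nodes.OppDec Cfsg.Agent.Nodes.LeviDec
  Cfsg.Agent.KFacts.RgdBorelTits Cfsg.Agent.H1.Over Cfsg.Agent.H1.RgdRow Cfsg.Agent.KFacts.RgdFilt
open scoped commutatorElement

variable {I W Y : Type*} [Fintype I] [DecidableEq I] [Group W] [Group Y] {M : CoxeterMatrix I}
  {cs : CoxeterSystem M W} {A : I → I → ℤ} {h : IsCartan M A} {T : Subgroup Y} {n : I → Y}
  {X : (I → ℤ) → Subgroup Y}

theorem pCore_ne_bot_of_isTwoLocal [Finite Y] {H : Subgroup Y} (hH : IsTwoLocal H) : pCore 2 ↥H ≠ ⊥ := by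
  obtain ⟨Q, h1, h2, rfl⟩ := hH
  intro hb
  have h3 := QTUniq.Local.le_map_pCore (p := 2) (U := Q) (X := normalizer (Q : Set Y)) le_normalizer h1 le_rfl
  rw [hb, Subgroup.map_bot] at h3
  exact h2 (le_bot_iff.1 h3)

/-- **Rank two**: a subgroup containing `U` and `X_{-i}` lies in at most one maximal 2-local subgroup. -/
theorem uniq_of_rgd [Finite W] [Finite Y] {R : RGD cs h 2 T n X} {F : (I → ℤ) → ℝ → Subgroup Y} (hF : Filt R F)
    (hG : Nodes.RGDLib.G1 cs h X = ⊤) {Z : Subgroup Y} (hU : RGD.Sup X (RGD.Pos cs h) ≤ Z) {i i' : I} (hne : i' ≠ i)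
    (hall : ∀ j, j = i ∨ j = i') (hi : X (-sr i) ≤ Z) : Uniq Z := by
  have h2p : Fact (Nat.Prime 2) := ⟨Nat.prime_two⟩
  set P := PJ cs h T X {i} with hP
  set K : Subgroup Y := (pCore 2 ↥P).map P.subtype with hK
  have hN : IsTwoLocal (normalizer (K : Set Y)) :=
    ⟨K, (Lib.Cores.pCore_isPGroup 2).map _, fun h0 => Rgd.pCore_PJ_ne_bot R hne
      ((Subgroup.map_eq_bot_iff_of_injective _ P.subtype_injective).1 h0), rfl⟩
  refine Uniq.of_le hN fun H hH hZH => ?_
  obtain ⟨h1, h2⟩ := le_PJ_of_core hF hG (hU.trans hZH) (pCore_ne_bot_of_isTwoLocal hH)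
  have h3 : JH X H = {i} := by
    ext j
    rw [Set.mem_singleton_iff]
    constructor
    · intro hj
      rcases hall j with h4 | h4
      · exact h4
      · exfalso
        apply h1
        ext k
        simp only [Set.mem_univ, iff_true]
        rcases hall k with rfl | rfl
        · exact hi.trans hZH
        · rwa [← h4]
    · rintro rfl
      exact hi.trans hZH
  rw [h3] at h2
  exact h2.trans (QTUniq.Local.le_normalizer_map_pCore 2 P)

end Cfsg.Agent.H2.UniqRgd
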